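import Cfsg.Agent.Lib.Uniq.Basic
import Cfsg.Agent.Lib.PLength.Series
import Cfsg.Agent.Lib.Hall.PStructureNarrow
import Cfsg.Agent.Lib.Hall.Solvable
import Cfsg.Agent.Lib.HallHigman.Normalize
import Cfsg.Agent.Lib.HallHigman.Solvable
import Cfsg.Agent.Lib.OddLocal.PLengthOne
import Cfsg.Agent.Lib.Components.MaxLocal
import Mathlib.GroupTheory.SpecificGroups.ZGroup
set_option autoImplicit false

/-! Tools for `p`-length one. -/

namespace Cfsg.Agent.Lib.Uniq.PL

open Subgroup
open scoped Pointwise commutatorElement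
open Cfsg.Agent.Lib.Components.MaxLocal (locCore locCore_le le_normalizer_locCore locCore_isPGroup)

section Abstract

variable {H : Type*} [Group H] [Finite H] {p : ℕ} [hp : Fact p.Prime]

/-- A normal `p`-subgroup containing every Sylow subgroup gives `p`-length one. -/
theorem pl1_of_sylow_le (O : Subgroup H) [O.Normal] (hO : IsPGroup p O)
    (h : ∀ S : Sylow p H, (S : Subgroup H) ≤ O) : PLengthLE p 1 H := by
  refine PLength.pLengthLE_one fun hd => ?_
  obtain ⟨S⟩ : Nonempty (Sylow p H) := inferInstance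
  have hπ : Function.Surjective (QuotientGroup.mk' (pPrimeCore p H)) := QuotientGroup.mk'_surjective _
  haveI : (O.map (QuotientGroup.mk' (pPrimeCore p H))).Normal := Subgroup.Normal.map inferInstance _ hπ
  have h1 : ((S.mapSurjective hπ : Sylow p (H ⧸ pPrimeCore p H)) : Subgroup (H ⧸ pPrimeCore p H)) ≤
      pCore p (H ⧸ pPrimeCore p H) := by
    rw [Sylow.coe_mapSurjective]
    exact (map_mono (h S)).trans (Hall.le_pCore (hO.map _))
  exact (S.mapSurjective hπ).not_dvd_index (hd.trans (index_dvd_of_le h1))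

theorem sylow_le_pCore_of_pl1 [Group.IsSolvable H] (hpl : PLengthLE p 1 H) (hcore : pPrimeCore p H = ⊥)
    (S : Sylow p H) : (S : Subgroup H) ≤ pCore p H := by
  have h := OddLocal.pPrimeCore_sup_normalizer_eq_top p hpl S
  rw [hcore, bot_sup_eq, normalizer_eq_top_iff] at h
  exact Hall.le_pCore S.2

/-- Lifting `p`-length one through a normal `p`-subgroup. -/
theorem pl1_of_quot [Group.IsSolvable H] (N : Subgroup H) [N.Normal] (hN : IsPGroup p N)
    (hX : ∀ X : Subgroup H, (Nat.card X).Coprime p → (X ⊔ N).Normal → X = ⊥)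
    (hq : PLengthLE p 1 (H ⧸ N)) : PLengthLE p 1 H := by
  set π := QuotientGroup.mk' N
  have hπ : Function.Surjective π := QuotientGroup.mk'_surjective N
  set M := (pPrimeCore p (H ⧸ N)).comap π
  haveI : (pPrimeCore p (H ⧸ N)).Normal := Hall.pPrimeCore_normal p
  have hNM : N ≤ M := fun x hx => by
    show π x ∈ pPrimeCore p (H ⧸ N)
    rw [show π x = 1 from (QuotientGroup.eq_one_iff x).mpr hx]
    exact one_mem _
  have hrel : (N.relIndex M).Coprime p := by
    refine (Hall.coprime_card_pPrimeCore (G := H ⧸ N) p).coprime_dvd_left ?_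
    have h := Coprime.card_map_mk' N M
    rw [map_comap_eq_self_of_surjective hπ, inf_eq_right.mpr hNM] at h
    have h2 := (N.subgroupOf M).card_mul_index
    rw [Coprime.card_subgroupOf hNM, ← h, mul_comm] at h2
    exact (Nat.eq_of_mul_eq_mul_right Nat.card_pos h2).dvd
  obtain ⟨X, hXM, hXN, hXc⟩ := HallHigman.exists_complement hN hNM hrel
  have hX1 := hX X hXc (hXN ▸ inferInstanceAs M.Normal)
  have hcore : pPrimeCore p (H ⧸ N) = ⊥ := by
    rw [← map_comap_eq_self_of_surjective hπ (pPrimeCore p (H ⧸ N)), Subgroup.map_eq_bot_iff,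
      QuotientGroup.ker_mk']
    show M ≤ N
    rw [← hXN, hX1, bot_sup_eq]
  haveI : (pCore p (H ⧸ N)).Normal := Hall.pCore_normal p
  refine pl1_of_sylow_le ((pCore p (H ⧸ N)).comap π)
    ((Hall.isPGroup_pCore p).comap_of_ker_isPGroup π (by rw [QuotientGroup.ker_mk']; exact hN)) fun S => ?_
  refine map_le_iff_le_comap.mp ?_
  exact (Sylow.coe_mapSurjective hπ S).ge.trans (sylow_le_pCore_of_pl1 hq hcore _)

/-- A `p`-group in a group with cyclic Sylow subgroups: subgroups of order `p` coincide. -/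
theorem zpowers_eq_of_cyclic [IsZGroup H] {S : Subgroup H} (hS : IsPGroup p S) {v w : H} (hv : v ∈ S)
    (hw : w ∈ S) (hvp : v ^ p = 1) (hwp : w ^ p = 1) (hv1 : v ≠ 1) : w ∈ zpowers v := by
  haveI := hS.isCyclic_of_isZGroup
  classical
  haveI := Fintype.ofFinite S
  by_contra hnot
  have hle : (Finset.univ.filter fun a : S => a ^ p = 1).card ≤ p := IsCyclic.card_pow_eq_one_le hp.out.pos
  have hsub : insert (⟨w, hw⟩ : S) (Finset.univ.filter fun a : S => (a : H) ∈ zpowers v) ⊆
      Finset.univ.filter fun a : S => a ^ p = 1 := by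
    intro a ha
    rw [Finset.mem_filter]
    refine ⟨Finset.mem_univ _, ?_⟩
    rcases Finset.mem_insert.mp ha with rfl | ha
    · exact Subtype.ext (by simpa using hwp)
    · obtain ⟨i, hi⟩ := mem_zpowers_iff.mp (Finset.mem_filter.mp ha).2
      refine Subtype.ext ?_
      rw [SubmonoidClass.coe_pow, ← hi, ← zpow_natCast, ← zpow_mul, mul_comm, zpow_mul, zpow_natCast, hvp,
        one_zpow]
      rfl
  have hcard : (Finset.univ.filter fun a : S => (a : H) ∈ zpowers v).card = p := by
    rw [← Fintype.card_subtype, ← Nat.card_eq_fintype_card]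
    rw [Nat.card_congr ((Equiv.subtypeSubtypeEquivSubtype (p := (· ∈ S)) (q := (· ∈ zpowers v))
      fun {x} hx => zpowers_le.mpr hv hx)), Nat.card_zpowers, orderOf_eq_prime hvp hv1]
  have := Finset.card_le_card hsub
  rw [Finset.card_insert_of_notMem (s := Finset.univ.filter fun a : S => (a : H) ∈ zpowers v) (fun h => hnot (Finset.mem_filter.mp h).2), hcard] at this
  omega

end Abstract

variable {G : Type*} [Group G]

/-- Conjugation-invariant images of characteristic subgroups. -/
theorem normalizer_le_normalizer_map_char (X : Subgroup G) (K : Subgroup X) [hK : K.Characteristic] :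
    normalizer (X : Set G) ≤ normalizer ((K.map X.subtype : Subgroup G) : Set G) := by
  intro g hg
  have key : ∀ g ∈ normalizer (X : Set G), ∀ y ∈ K.map X.subtype, g * y * g⁻¹ ∈ K.map X.subtype := by
    rintro g hg _ ⟨x, hx, rfl⟩
    refine ⟨X.normalizerMonoidHom ⟨g, hg⟩ x, ?_, rfl⟩
    exact (SetLike.ext_iff.mp (hK.fixed (X.normalizerMonoidHom ⟨g, hg⟩)) x).mpr hx
  rw [mem_normalizer_iff]
  exact fun y => ⟨key g hg y, fun h => by simpa [mul_assoc] using key g⁻¹ (inv_mem hg) _ h⟩

variable [Finite G] {p : ℕ} [hp : Fact p.Prime]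

/-- In a subgroup of `p`-length one normalised by an overgroup with self-centralising `p`-subgroup,
all `p`-subgroups lie in a normal `p`-subgroup. -/
theorem exists_normal_pgroup {V H₁ D : Subgroup G} (hVH : V ≤ H₁) (hVp : IsPGroup p V)
    (hVn : H₁ ≤ normalizer (V : Set G)) (hCV : H₁ ⊓ centralizer (V : Set G) ≤ V) (hDH : D ≤ H₁)
    (hDn : H₁ ≤ normalizer (D : Set G)) [Group.IsSolvable D] (hpl : PLengthLE p 1 D) {X : Subgroup G}
    (hXD : X ≤ D) (hX : IsPGroup p X) :
    ∃ O : Subgroup G, IsPGroup p O ∧ O ≤ H₁ ∧ H₁ ≤ normalizer (O : Set G) ∧ X ≤ O := by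
  have hop : opc p D = ⊥ := by
    have hle : opc p D ≤ H₁ := (opc_le p D).trans hDH
    have hn : H₁ ≤ normalizer (opc p D : Set G) :=
      hDn.trans (OddLocal.normalizer_le_normalizer_piCoreOf _ D)
    have hint : opc p D ⊓ V = ⊥ := Coprime.inf_eq_bot_of_coprime (by
      obtain ⟨k, hk⟩ := IsPGroup.iff_card.mp hVp
      rw [hk]; exact (coprime_opc p D).pow_right k)
    have hcent : opc p D ≤ centralizer (V : Set G) := by
      intro x hx
      rw [mem_centralizer_iff]
      intro v hv
      have h1 : v * x * v⁻¹ * x⁻¹ ∈ opc p D ⊓ V := by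
        refine ⟨(opc p D).mul_mem ((mem_normalizer_iff.mp (hn (hVH hv)) x).mp hx) ((opc p D).inv_mem hx), ?_⟩
        rw [mul_assoc v, mul_assoc v]
        exact V.mul_mem hv ((mem_normalizer_iff.mp (hVn (hle hx)) _).mp (V.inv_mem hv))
      rw [hint, mem_bot] at h1
      exact mul_inv_eq_iff_eq_mul.mp (mul_inv_eq_one.mp h1)
    rw [← inf_eq_left.mpr (le_rfl : opc p D ≤ opc p D)]
    exact le_bot_iff.mp (hint ▸ le_inf inf_le_left (inf_le_left.trans ((le_inf hle hcent).trans hCV)))
  have hcore : pPrimeCore p ↥D = ⊥ := by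
    rw [opc_eq hp.out] at hop
    exact (Subgroup.map_eq_bot_iff_of_injective _ D.subtype_injective).mp hop
  refine ⟨locCore p D, locCore_isPGroup p D, (locCore_le p D).trans hDH, ?_, fun x hx => ?_⟩
  · haveI : (pCore p ↥D).Characteristic := Hall.pCore_characteristic p
    exact hDn.trans (normalizer_le_normalizer_map_char D (pCore p ↥D))
  · obtain ⟨S, hS⟩ := (hX.comap_subtype (K := D)).exists_le_sylow
    exact ⟨⟨x, hXD hx⟩, sylow_le_pCore_of_pl1 hpl hcore S (hS hx), rfl⟩

end Cfsg.Agent.Lib.Uniq.PL
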